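import Cfsg.Agent.H94.BR.FinB
import Cfsg.Agent.H862.Spr.Rows

/-!
# BR-FIN: `Spr` for large `q` from the rows of S3938
-/

set_option autoImplicit false

namespace Cfsg.Agent.H94.BR.Fin

open Cfsg Cfsg.Agent.OrdDiv Cfsg.Agent.H436 Cfsg.Agent.H262.Rx Cfsg.Agent.H883.BR Subgroup
open Cfsg.Agent.H424.Spr (Spr)

/-- transport -/
theorem spr_congr {S T : Type} [Group S] [Group T] (e : S ≃* T) (h : Spr T) : Spr S := by
  intro a ha
  obtain ⟨x, hx⟩ := h ((e.symm.trans a).trans e) (fun h1 => ha (by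
    ext y
    have h2 := congrArg (fun b : MulAut T => e.symm (b (e y))) h1
    simpa using h2))
  refine ⟨e.symm x, fun K hK hinv => ?_⟩
  have h1 := hx (K.map e.toMonoidHom) ⟨e.symm x, hK, e.apply_symm_apply x⟩ (by
    rintro _ ⟨k, hk, rfl⟩
    refine ⟨a k, hinv k hk, ?_⟩
    change e (a k) = e (a (e.symm (e k)))
    rw [e.symm_apply_apply])
  rw [eq_top_iff]
  intro y _
  have h2 : e y ∈ K.map e.toMonoidHom := h1 ▸ mem_top _
  obtain ⟨z, hz, hzy⟩ := h2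
  have : z = y := e.injective hzy
  exact this ▸ hz

theorem sprA_of_cl (cl : Cfsg.Agent.H862.Spr.SprCl) : SprA where
  psl := fun n => ⟨0, fun q _ T _ _ _ hT => by
    obtain ⟨F, _, _, hFq, ⟨e⟩⟩ := hT.real
    subst hFq
    exact spr_congr e (cl.psl hT.cond.1 hT.cond.2.1)⟩
  psp := fun n => ⟨0, fun q _ T _ _ _ hT => by
    obtain ⟨F, _, _, hFq, ⟨e⟩⟩ := hT.real
    subst hFq
    exact spr_congr e (cl.psp hT.cond.1 hT.cond.2.1)⟩
  psu := fun n => ⟨0, fun q _ T _ _ _ hT => by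
    obtain ⟨F, _, _, hFq, ⟨e⟩⟩ := hT.real
    exact spr_congr e (cl.psu hFq hT.cond.1 hT.cond.2.1)⟩
  oodd := fun n => ⟨0, fun q _ T _ _ _ hT => by
    obtain ⟨F, _, _, hFq, ⟨e⟩⟩ := hT.real
    subst hFq
    exact spr_congr e (cl.oodd hT.cond.1 hT.cond.2.1)⟩
  oplus := fun n => ⟨0, fun q _ T _ _ _ hT => by
    obtain ⟨F, _, _, hFq, ⟨e⟩⟩ := hT.real
    exact spr_congr e (cl.oplus hT.cond.1)⟩
  ominus := fun n => ⟨0, fun q _ T _ _ _ hT => by
    obtain ⟨F, _, _, a, b, hFq, hab, ⟨e⟩⟩ := hT.real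
    exact spr_congr e (cl.ominus hT.cond.1 hab)⟩

end Cfsg.Agent.H94.BR.Fin
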