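import Cfsg.Agent.H94.BR.SpDefs

/-!
# HUB BR, `Sp_{2m}(2^f)`: basic identities
-/

set_option autoImplicit false

namespace Cfsg.Agent.H94.BR

open Cfsg.Agent.H883.BR

section

variable {m q : ℕ} {K : Type} [Field K] {F : Subfield K} {V : Type} [AddCommGroup V] [Module K V]
  {B : LinearMap.BilinForm K V} {G : Type} [Group G] {ρ : G →* Module.End K V}
  {b : Module.Basis (Fin m ⊕ Fin m) K V}

theorem two_zero (D : SpD m q F B ρ b) : (2 : K) = 0 := by
  have := D.char
  exact CharTwo.two_eq_zero

theorem add_self_K (D : SpD m q F B ρ b) (c : K) : c + c = 0 := by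
  have := D.char
  exact CharTwo.add_self_eq_zero c

theorem add_self_mod (D : SpD m q F B ρ b) {W : Type} [AddCommGroup W] [Module K W] (v : W) : v + v = 0 := by
  rw [← two_smul K v, two_zero D, zero_smul]

theorem symmB (D : SpD m q F B ρ b) (x y : V) : B x y = B y x := by
  have h := D.alt (x + y)
  simp only [map_add, LinearMap.add_apply, D.alt, zero_add, add_zero] at h
  have h2 := add_self_K D (B y x)
  linear_combination h - h2

theorem B_inr (D : SpD m q F B ρ b) (v : V) (i : Fin m) : B v (b (Sum.inr i)) = b.repr v (Sum.inl i) := by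
  classical
  conv_lhs => rw [← b.sum_repr v]
  rw [map_sum, LinearMap.sum_apply, Fintype.sum_sum_type]
  simp only [map_smul, LinearMap.smul_apply, D.lr, D.rr, smul_eq_mul, mul_zero, Finset.sum_const_zero, add_zero,
    mul_ite, mul_one, Finset.sum_ite_eq', Finset.mem_univ, if_true]

theorem B_inl (D : SpD m q F B ρ b) (v : V) (i : Fin m) : B v (b (Sum.inl i)) = b.repr v (Sum.inr i) := by
  classical
  conv_lhs => rw [← b.sum_repr v]
  rw [map_sum, LinearMap.sum_apply, Fintype.sum_sum_type]
  have h : ∀ j, B (b (Sum.inr j)) (b (Sum.inl i)) = if i = j then 1 else 0 := fun j => by rw [symmB D, D.lr]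
  simp only [map_smul, LinearMap.smul_apply, h, D.ll, smul_eq_mul, mul_zero, Finset.sum_const_zero, zero_add,
    mul_ite, mul_one, Finset.sum_ite_eq, Finset.mem_univ, if_true]

theorem nondeg (D : SpD m q F B ρ b) {v : V} (h : ∀ y, B v y = 0) : v = 0 := by
  refine b.repr.map_eq_zero_iff.1 (Finsupp.ext fun i => ?_)
  rcases i with i | i
  · rw [← B_inr D, h]; rfl
  · rw [← B_inl D, h]; rfl

/-- rational vectors -/
def Rat (F : Subfield K) (b : Module.Basis (Fin m ⊕ Fin m) K V) (v : V) : Prop := ∀ i, b.repr v i ∈ F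

theorem Rat.add {v w : V} (hv : Rat F b v) (hw : Rat F b w) : Rat F b (v + w) := fun i => by
  rw [map_add]; exact F.add_mem (hv i) (hw i)

theorem Rat.smul {v : V} {c : K} (hc : c ∈ F) (hv : Rat F b v) : Rat F b (c • v) := fun i => by
  rw [map_smul]; exact F.mul_mem hc (hv i)

theorem rat_basis (i : Fin m ⊕ Fin m) : Rat F b (b i) := fun j => by
  classical
  rw [b.repr_self, Finsupp.single_apply]
  split_ifs
  · exact F.one_mem
  · exact F.zero_mem

theorem Rat.app (D : SpD m q F B ρ b) {v : V} (hv : Rat F b v) (g : G) : Rat F b (ρ g v) := fun i => by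
  rw [← b.sum_repr v, map_sum, map_sum, Finsupp.coe_finsetSum, Finset.sum_apply]
  refine F.sum_mem fun j _ => ?_
  rw [map_smul, map_smul]
  exact F.mul_mem (hv j) (D.rat g i j)

theorem Rat.form (D : SpD m q F B ρ b) {v w : V} (hv : Rat F b v) (hw : Rat F b w) : B v w ∈ F := by
  rw [← b.sum_repr w, map_sum]
  refine F.sum_mem fun j _ => ?_
  rw [map_smul]
  refine F.mul_mem (hw j) ?_
  rcases j with j | j
  · rw [B_inl D]; exact hv _
  · rw [B_inr D]; exact hv _

theorem Rat.coef {v : V} (hv : Rat F b v) (h0 : v ≠ 0) {c : K} (hc : Rat F b (c • v)) : c ∈ F := by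
  obtain ⟨i, hi⟩ : ∃ i, b.repr v i ≠ 0 := by
    by_contra hcon
    push Not at hcon
    exact h0 (b.repr.map_eq_zero_iff.1 (Finsupp.ext hcon))
  have h1 := hc i
  rw [map_smul, Finsupp.smul_apply, smul_eq_mul] at h1
  have h2 := F.mul_mem h1 (F.inv_mem (hv i))
  rwa [mul_assoc, mul_inv_cancel₀ hi, mul_one] at h2

/-! ### `sq` and `wd` -/

theorem sq_smul (c : K) (v : V) : sq B (c • v) = c ^ 2 • sq B v := LinearMap.ext fun x => by
  rw [LinearMap.smul_apply, sq_apply, sq_apply, map_smul, LinearMap.smul_apply, smul_eq_mul, smul_smul, smul_smul]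
  congr 1; ring

theorem wd_comm (v w : V) : wd B v w = wd B w v := LinearMap.ext fun x => by
  rw [wd_apply, wd_apply, add_comm]

theorem wd_self (D : SpD m q F B ρ b) (v : V) : wd B v v = 0 := LinearMap.ext fun x => by
  rw [wd_apply, add_self_mod D, LinearMap.zero_apply]

theorem wd_smul (c : K) (v w : V) : wd B v (c • w) = c • wd B v w := LinearMap.ext fun x => by
  rw [LinearMap.smul_apply, wd_apply, wd_apply, map_smul, LinearMap.smul_apply, smul_eq_mul, smul_add, smul_smul,
    smul_smul, smul_smul, mul_comm c (B v x)]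

theorem smul_wd (c : K) (v w : V) : wd B (c • v) w = c • wd B v w := by
  rw [wd_comm, wd_smul, wd_comm]

theorem wd_add (v w w' : V) : wd B v (w + w') = wd B v w + wd B v w' := LinearMap.ext fun x => by
  rw [LinearMap.add_apply, wd_apply, wd_apply, wd_apply, map_add, LinearMap.add_apply, add_smul, smul_add]
  abel

theorem add_wd (v v' w : V) : wd B (v + v') w = wd B v w + wd B v' w := by
  rw [wd_comm, wd_add, wd_comm w v, wd_comm w v']

theorem sq_add (v w : V) : sq B (v + w) = sq B v + sq B w + wd B v w := LinearMap.ext fun x => by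
  rw [LinearMap.add_apply, LinearMap.add_apply, sq_apply, sq_apply, sq_apply, wd_apply, map_add,
    LinearMap.add_apply, add_smul, smul_add, smul_add]
  abel

theorem iso_inv (D : SpD m q F B ρ b) (g : G) (x y : V) : B x (ρ g⁻¹ y) = B (ρ g x) y := by
  rw [← D.iso g x, ← Module.End.mul_apply, ← map_mul, mul_inv_cancel, map_one, Module.End.one_apply]

theorem ad_sq (D : SpD m q F B ρ b) (g : G) (v : V) : ad ρ g (sq B v) = sq B (ρ g v) := LinearMap.ext fun x => by
  rw [ad_apply, Module.End.mul_apply, Module.End.mul_apply, sq_apply, sq_apply, map_smul, iso_inv D]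

theorem ad_wd (D : SpD m q F B ρ b) (g : G) (v w : V) : ad ρ g (wd B v w) = wd B (ρ g v) (ρ g w) :=
  LinearMap.ext fun x => by
    rw [ad_apply, Module.End.mul_apply, Module.End.mul_apply, wd_apply, wd_apply, map_add, map_smul, map_smul,
      iso_inv D, iso_inv D]

theorem ad_one (g : G) : ad ρ g 1 = 1 := by
  rw [ad_apply, mul_one, ← map_mul, mul_inv_cancel, map_one]

theorem conj_eq (g z : G) : ρ (g * z * g⁻¹) = ad ρ g (ρ z) := by
  rw [ad_apply, map_mul, map_mul]

theorem ad_inv_cancel (g : G) (X : Module.End K V) : ad ρ g⁻¹ (ad ρ g X) = X := by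
  rw [← Module.End.mul_apply, ← map_mul, inv_mul_cancel, map_one, Module.End.one_apply]

theorem wd_sq_zero (D : SpD m q F B ρ b) {v w : V} (h : B v w = 0) : wd B v w * wd B v w = 0 :=
  LinearMap.ext fun x => by
    have h' : B w v = 0 := by rw [symmB D, h]
    rw [Module.End.mul_apply, wd_apply, wd_apply, map_add, map_add, map_smul, map_smul, map_smul, map_smul, D.alt,
      D.alt, h, h', smul_zero, smul_zero, add_zero, zero_smul, zero_smul, add_zero, LinearMap.zero_apply]

theorem wd_mem {v w : V} (h : B v w = 0) : wd B v w ∈ Lam0 B := Submodule.subset_span ⟨v, w, h, rfl⟩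

theorem one_ne_zeroE (D : SpD m q F B ρ b) : (1 : Module.End K V) ≠ 0 := by
  intro h
  have := congrArg (fun T : Module.End K V => T (b (Sum.inl ⟨0, by have := D.two_le; omega⟩))) h
  exact b.ne_zero _ this

/-- the vectors `y` with prescribed `B v y`, `B w y` -/
theorem exists_dual (D : SpD m q F B ρ b) {v w : V} (hv : v ≠ 0) (hw : ¬ ∃ c : K, w = c • v) :
    ∃ y, B v y = 0 ∧ B w y = 1 := by
  have hfd : FiniteDimensional K V := b.finiteDimensional_of_finite
  by_contra hcon
  push Not at hcon
  have hk : LinearMap.ker (B v) ≤ LinearMap.ker (B w) := by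
    intro y hy
    rw [LinearMap.mem_ker] at hy ⊢
    by_contra h
    refine hcon ((B w y)⁻¹ • y) ?_ ?_
    · rw [map_smul, hy, smul_zero]
    · rw [map_smul, smul_eq_mul, inv_mul_cancel₀ h]
  obtain ⟨c, hc⟩ : ∃ c : K, B w = c • B v := by
    obtain ⟨y0, hy0⟩ : ∃ y0, B v y0 ≠ 0 := by
      by_contra h
      push Not at h
      exact hv (nondeg D h)
    refine ⟨B w y0 * (B v y0)⁻¹, LinearMap.ext fun y => ?_⟩
    have h1 : y - (B v y * (B v y0)⁻¹) • y0 ∈ LinearMap.ker (B w) := hk (by
      rw [LinearMap.mem_ker, map_sub, map_smul, smul_eq_mul, mul_assoc, inv_mul_cancel₀ hy0, mul_one, sub_self])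
    rw [LinearMap.mem_ker, map_sub, map_smul, sub_eq_zero, smul_eq_mul] at h1
    rw [h1, LinearMap.smul_apply, smul_eq_mul]
    ring
  apply hw
  refine ⟨c, ?_⟩
  have : w - c • v = 0 := nondeg D fun y => by
    rw [map_sub, LinearMap.sub_apply, hc, map_smul, sub_self]
  rwa [sub_eq_zero] at this

end

end Cfsg.Agent.H94.BR
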