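import Cfsg.Agent.H601.BR.Fld

/-!
# HUB BR, `Sp_{2m}(2^f)`: Goursat's lemma for subrings of `F × F`
-/

set_option autoImplicit false

namespace Cfsg.Agent.H94.BR

/-- a ring endomorphism of a finite field of characteristic two is a power of Frobenius -/
theorem ringHom_pow {F : Type} [Field F] [Finite F] [CharP F 2] (τ : F →+* F) : ∃ i : ℕ, ∀ x, τ x = x ^ 2 ^ i := by
  classical
  let _ := ZMod.algebra F 2
  have : Fact (Nat.Prime 2) := ⟨Nat.prime_two⟩
  let τ' : F →ₐ[ZMod 2] F := { τ with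
    commutes' := fun r => by
      have h := RingHom.ext_zmod (τ.comp (algebraMap (ZMod 2) F)) (algebraMap (ZMod 2) F)
      exact congrArg (fun g : ZMod 2 →+* F => g r) h }
  obtain ⟨n, hn⟩ := (FiniteField.bijective_frobeniusAlgHom_pow (ZMod 2) F).2 τ'
  refine ⟨n.1, fun x => ?_⟩
  have h1 : τ x = τ' x := rfl
  rw [h1, ← hn]
  have : ∀ k : ℕ, ∀ x : F, (FiniteField.frobeniusAlgHom (ZMod 2) F ^ k) x = x ^ 2 ^ k := by
    intro k
    induction k with
    | zero => intro x; simp
    | succ k ih =>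
      intro x
      rw [pow_succ, AlgHom.mul_apply, ih, FiniteField.frobeniusAlgHom_apply, ZMod.card, ← pow_mul, pow_succ, mul_comm]
  exact this _ _

/-- Goursat -/
theorem goursat {K : Type} [Field K] [CharP K 2] {F : Subfield K} [Finite F] (S : Set (K × K))
    (hS : ∀ s ∈ S, s.1 ∈ F ∧ s.2 ∈ F) (h1 : F ≤ Subfield.closure (Prod.fst '' S))
    (h2 : F ≤ Subfield.closure (Prod.snd '' S)) :
    (∀ x ∈ F, ∀ y ∈ F, ((x, y) : K × K) ∈ Subring.closure S) ∨
    ∃ i : ℕ, (∀ x ∈ F, ((x, x ^ 2 ^ i) : K × K) ∈ Subring.closure S) ∧ ∀ s ∈ S, s.2 = s.1 ^ 2 ^ i := by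
  classical
  have hR : ∀ r ∈ Subring.closure S, r.1 ∈ F ∧ r.2 ∈ F := by
    have : Subring.closure S ≤ Subring.prod F.toSubring F.toSubring :=
      Subring.closure_le.2 fun s hs => Subring.mem_prod.2 (hS s hs)
    intro r hr
    exact Subring.mem_prod.1 (this hr)
  have hfin1 : Finite (Subfield.closure (Prod.fst '' S)) := by
    have hle : Subfield.closure (Prod.fst '' S) ≤ F := Subfield.closure_le.2 (by
      rintro _ ⟨s, hs, rfl⟩; exact (hS s hs).1)
    exact Finite.of_injective (Subfield.inclusion hle) (RingHom.injective _)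
  have hfin2 : Finite (Subfield.closure (Prod.snd '' S)) := by
    have hle : Subfield.closure (Prod.snd '' S) ≤ F := Subfield.closure_le.2 (by
      rintro _ ⟨s, hs, rfl⟩; exact (hS s hs).2)
    exact Finite.of_injective (Subfield.inclusion hle) (RingHom.injective _)
  have p1 : ∀ x ∈ F, ∃ y, ((x, y) : K × K) ∈ Subring.closure S := by
    intro x hx
    have hx' := Cfsg.Agent.H601.BR.closure_le_subring (h1 hx)
    have : Subring.closure (Prod.fst '' S) = (Subring.closure S).map (RingHom.fst K K) := by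
      rw [RingHom.map_closure]; rfl
    rw [this] at hx'
    obtain ⟨r, hr, hrx⟩ := Subring.mem_map.1 hx'
    refine ⟨r.2, ?_⟩
    have : ((x, r.2) : K × K) = r := Prod.ext hrx.symm rfl
    rw [this]; exact hr
  have p2 : ∀ y ∈ F, ∃ x, ((x, y) : K × K) ∈ Subring.closure S := by
    intro x hx
    have hx' := Cfsg.Agent.H601.BR.closure_le_subring (h2 hx)
    have : Subring.closure (Prod.snd '' S) = (Subring.closure S).map (RingHom.snd K K) := by
      rw [RingHom.map_closure]; rfl
    rw [this] at hx'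
    obtain ⟨r, hr, hrx⟩ := Subring.mem_map.1 hx'
    refine ⟨r.1, ?_⟩
    have : ((r.1, x) : K × K) = r := Prod.ext rfl hrx.symm
    rw [this]; exact hr
  by_cases hA : ∃ y, y ≠ 0 ∧ ((0, y) : K × K) ∈ Subring.closure S
  · left
    obtain ⟨y0, hy0, hy0S⟩ := hA
    have hy0F := (hR _ hy0S).2
    have key : ∀ y ∈ F, ((0, y) : K × K) ∈ Subring.closure S := by
      intro y hy
      obtain ⟨x, hx⟩ := p2 (y * y0⁻¹) (F.mul_mem hy (F.inv_mem hy0F))
      have := mul_mem hx hy0S
      rw [Prod.mk_mul_mk, mul_zero, mul_assoc, inv_mul_cancel₀ hy0, mul_one] at this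
      exact this
    intro x hx y hy
    obtain ⟨y1, hy1⟩ := p1 x hx
    have h3 := add_mem hy1 (key (y - y1) (F.sub_mem hy (hR _ hy1).2))
    rw [Prod.mk_add_mk, add_zero, add_sub_cancel] at h3
    exact h3
  · right
    push Not at hA
    have huniq : ∀ x y y', ((x, y) : K × K) ∈ Subring.closure S → ((x, y') : K × K) ∈ Subring.closure S → y = y' := by
      intro x y y' h h'
      have h3 := sub_mem h h'
      rw [Prod.mk_sub_mk, sub_self] at h3
      by_contra hne
      exact hA (y - y') (sub_ne_zero.2 hne) h3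
    choose! t ht using p1
    have hchar : CharP F 2 := (F.subtype).charP F.subtype.injective 2
    let τ : F →+* F :=
      { toFun := fun x => ⟨t x, (hR _ (ht x x.2)).2⟩
        map_one' := Subtype.ext (huniq 1 _ _ (ht 1 F.one_mem) (one_mem _))
        map_zero' := Subtype.ext (huniq 0 _ _ (ht 0 F.zero_mem) (zero_mem _))
        map_mul' := fun x y => Subtype.ext (huniq _ _ _ (ht _ (x * y).2) (mul_mem (ht x x.2) (ht y y.2)))
        map_add' := fun x y => Subtype.ext (huniq _ _ _ (ht _ (x + y).2) (add_mem (ht x x.2) (ht y y.2))) }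
    obtain ⟨i, hi⟩ := ringHom_pow τ
    have hti : ∀ x ∈ F, t x = x ^ 2 ^ i := by
      intro x hx
      exact congrArg Subtype.val (hi ⟨x, hx⟩)
    refine ⟨i, fun x hx => ?_, fun s hs => ?_⟩
    · rw [← hti x hx]; exact ht x hx
    · rw [← hti _ (hS s hs).1]
      exact huniq s.1 _ _ (Subring.subset_closure hs) (ht _ (hS s hs).1)

end Cfsg.Agent.H94.BR
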