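import Cfsg.Agent.H94.BR.SpBasic
import Cfsg.Agent.H94.BR.SpGoursat

/-!
# HUB BR, `Sp_{2m}(2^f)`: the case analysis

`z = 1 + α v₀² + β v₀ ∧ v₁ ∈ M`; `E = {(x, y) : 1 + x v₀² + y v₀ ∧ v₁ ∈ M}` is stable under `(χ₀(b)², ψ(b))`,
`b ∈ N_M(U)`.
-/

set_option autoImplicit false

namespace Cfsg.Agent.H94.BR

open Cfsg.Agent.H883.BR

/-- a linear curve which is not alternating -/
def CaseI {K V G : Type} [Field K] [AddCommGroup V] [Module K V] [Group G] (B : LinearMap.BilinForm K V)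
    (ρ : G →* Module.End K V) (F : Subfield K) (M : Subgroup G) : Prop :=
  ∃ (v0 v1 : V) (a b : K), a ≠ 0 ∧ v0 ≠ 0 ∧ B v0 v1 = 0 ∧
    ∀ t ∈ F, ∃ g ∈ M, ρ g = 1 + t • (a • sq B v0 + b • wd B v0 v1)

/-- a curve of degree two with alternating derivative -/
def CaseII {K V G : Type} [Field K] [AddCommGroup V] [Module K V] [Group G] (B : LinearMap.BilinForm K V)
    (ρ : G →* Module.End K V) (F : Subfield K) (M : Subgroup G) : Prop :=
  ∃ (v0 v2 : V) (e : K), v0 ≠ 0 ∧ (¬ ∃ c : K, v2 = c • v0) ∧ B v0 v2 = 0 ∧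
    ∀ t ∈ F, ∃ g ∈ M, ρ g = 1 + t • wd B v0 v2 + (t ^ 2 * e) • sq B v0

section

variable {m q : ℕ} {K : Type} [Field K] {F : Subfield K} {V : Type} [AddCommGroup V] [Module K V]
  {B : LinearMap.BilinForm K V} {G : Type} [Group G] {ρ : G →* Module.End K V}
  {b : Module.Basis (Fin m ⊕ Fin m) K V}

/-- products in the isotropic case -/
theorem mul_curve (D : SpD m q F B ρ b) {v0 v1 v1' : V} (h : B v0 v1 = 0) (h' : B v0 v1' = 0) (s s' t t' : K) :
    (1 + s • sq B v0 + t • wd B v0 v1) * (1 + s' • sq B v0 + t' • wd B v0 v1') =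
      1 + (s + s' + t * t' * B v1 v1') • sq B v0 + (t • wd B v0 v1 + t' • wd B v0 v1') := by
  have h1 : B v1 v0 = 0 := by rw [symmB D, h]
  refine LinearMap.ext fun x => ?_
  simp only [Module.End.mul_apply, LinearMap.add_apply, LinearMap.smul_apply, Module.End.one_apply, sq_apply, wd_apply,
    map_add, map_smul, D.alt, h', h1, smul_zero, add_zero, zero_smul, smul_add, smul_smul, add_smul]
  have e : ∀ c d : K, c = d → c • v0 = d • v0 := fun c d hcd => by rw [hcd]
  rw [e (t' * B v0 x * (t * B v1 v1')) (t * t' * B v1 v1' * B v0 x) (by ring)]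
  abel

theorem curve_sq (D : SpD m q F B ρ b) {v0 v1 : V} (h : B v0 v1 = 0) (s t : K) :
    (1 + s • sq B v0 + t • wd B v0 v1) * (1 + s • sq B v0 + t • wd B v0 v1) = 1 := by
  rw [mul_curve D h h, D.alt, mul_zero, add_zero, add_self_K D, zero_smul, add_zero, add_self_mod D, add_zero]

/-- the pairs `(x, y)` with `1 + x v₀² + y v₀ ∧ v₁ ∈ M` -/
def EE (D : SpD m q F B ρ b) (M : Subgroup G) {v0 v1 : V} (h : B v0 v1 = 0) : AddSubgroup (K × K) where
  carrier := {r | ∃ g ∈ M, ρ g = 1 + r.1 • sq B v0 + r.2 • wd B v0 v1}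
  zero_mem' := ⟨1, M.one_mem, by rw [map_one, Prod.fst_zero, Prod.snd_zero, zero_smul, zero_smul, add_zero, add_zero]⟩
  add_mem' := by
    rintro r r' ⟨g, hg, hr⟩ ⟨g', hg', hr'⟩
    refine ⟨g * g', M.mul_mem hg hg', ?_⟩
    rw [map_mul, hr, hr', mul_curve D h h, D.alt, mul_zero, add_zero, Prod.fst_add, Prod.snd_add, ← add_smul]
  neg_mem' := by
    rintro r ⟨g, hg, hr⟩
    refine ⟨g, hg, ?_⟩
    have e1 : (-r).1 = r.1 := by
      rw [Prod.fst_neg]; exact (eq_neg_of_add_eq_zero_left (add_self_K D r.1)).symm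
    have e2 : (-r).2 = r.2 := by
      rw [Prod.snd_neg]; exact (eq_neg_of_add_eq_zero_left (add_self_K D r.2)).symm
    rw [hr, e1, e2]

theorem mem_EE (D : SpD m q F B ρ b) {M : Subgroup G} {v0 v1 : V} {h : B v0 v1 = 0} {r : K × K} :
    r ∈ EE D M h ↔ ∃ g ∈ M, ρ g = 1 + r.1 • sq B v0 + r.2 • wd B v0 v1 := Iff.rfl

/-- conjugation -/
theorem ad_curve (D : SpD m q F B ρ b) (g : G) (v0 v1 : V) (s t : K) :
    ad ρ g (1 + s • sq B v0 + t • wd B v0 v1) = 1 + s • sq B (ρ g v0) + t • wd B (ρ g v0) (ρ g v1) := by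
  rw [map_add, map_add, ad_one, map_smul, map_smul, ad_sq D, ad_wd D]

theorem EE_mul (D : SpD m q F B ρ b) {M : Subgroup G} {v0 v1 : V} {h : B v0 v1 = 0} {g : G} (hg : g ∈ M) {c d : K}
    (hc : ρ g v0 = c • v0) (hd : ad ρ g (wd B v0 v1) = d • wd B v0 v1) {r : K × K} (hr : r ∈ EE D M h) :
    (c ^ 2, d) * r ∈ EE D M h := by
  obtain ⟨z, hz, hzr⟩ := hr
  refine ⟨g * z * g⁻¹, M.mul_mem (M.mul_mem hg hz) (M.inv_mem hg), ?_⟩
  rw [conj_eq, hzr, map_add, map_add, ad_one, map_smul, map_smul, ad_sq D, hc, sq_smul, hd, smul_smul, smul_smul,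
    Prod.fst_mul, Prod.snd_mul, mul_comm (c ^ 2), mul_comm d]

theorem closure_mul (D : SpD m q F B ρ b) {M : Subgroup G} {v0 v1 : V} {h : B v0 v1 = 0} {S : Set (K × K)}
    (hS : ∀ s ∈ S, ∀ r ∈ EE D M h, s * r ∈ EE D M h) {s : K × K} (hs : s ∈ Subring.closure S) :
    ∀ r ∈ EE D M h, s * r ∈ EE D M h := by
  induction hs using Subring.closure_induction with
  | mem x hx => exact hS x hx
  | zero => intro r _; rw [zero_mul]; exact zero_mem _
  | one => intro r hr; rw [one_mul]; exact hr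
  | add x y _ _ hx hy => intro r hr; rw [add_mul]; exact add_mem (hx r hr) (hy r hr)
  | neg x _ hx => intro r hr; rw [neg_mul]; exact neg_mem (hx r hr)
  | mul x y _ _ hx hy => intro r hr; rw [mul_assoc]; exact hx _ (hy r hr)

/-- squares in a finite field of characteristic two -/
theorem exists_pow (D : SpD m q F B ρ b) (i : ℕ) {x : K} (hx : x ∈ F) : ∃ y ∈ F, y ^ 2 ^ i = x := by
  have := D.finF
  have := D.char
  have hchar : CharP F 2 := (F.subtype).charP F.subtype.injective 2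
  have hinj : Function.Injective fun y : F => y ^ 2 ^ i := by
    intro y z hyz
    have h1 : iterateFrobenius F 2 i y = iterateFrobenius F 2 i z := by
      rw [iterateFrobenius_def, iterateFrobenius_def]; exact hyz
    exact (iterateFrobenius F 2 i).injective h1
  obtain ⟨y, hy⟩ := Finite.surjective_of_injective hinj ⟨x, hx⟩
  exact ⟨y, y.2, congrArg Subtype.val hy⟩

variable {W : Type} [AddCommGroup W] [Module K W] {σ : G →* Module.End K W} {π : Lam0 B →ₗ[K] W}

/-- the line of `v₀ ∧ v₁` in `W` and in `End V` -/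
theorem W_line (D : SpD m q F B ρ b) (hW : WD B ρ σ π) {v0 v1 : V} (h : B v0 v1 = 0) {Y0 : Lam0 B}
    (hY0 : (Y0 : Module.End K V) = wd B v0 v1) (g : G) (c : K) :
    σ g (π Y0) = c • π Y0 ↔ ad ρ g (wd B v0 v1) = c • wd B v0 v1 := by
  have hm : wd B (ρ g v0) (ρ g v1) ∈ Lam0 B := wd_mem (by rw [D.iso, h])
  let Y1 : Lam0 B := ⟨_, hm⟩
  have hY1 : (Y1 : Module.End K V) = ad ρ g Y0 := by rw [hY0, ad_wd D]
  have h1 := hW.eqv g Y0 Y1 hY1
  rw [← h1]
  constructor
  · intro h2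
    have h3 : π (Y1 - c • Y0) = 0 := by rw [map_sub, map_smul, h2, sub_self]
    obtain ⟨s, hs⟩ := (hW.ker _).1 h3
    have hs' : ad ρ g (wd B v0 v1) = c • wd B v0 v1 + s • 1 := by
      rw [← hs, Submodule.coe_sub, Submodule.coe_smul, hY1, hY0]; abel
    have hN1 : ad ρ g (wd B v0 v1) * ad ρ g (wd B v0 v1) = 0 := by
      rw [ad_wd D]; exact wd_sq_zero D (by rw [D.iso, h])
    rw [hs', add_mul, mul_add, mul_add, smul_mul_smul_comm, wd_sq_zero D h, smul_zero, zero_add, smul_mul_smul_comm,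
      smul_mul_smul_comm, smul_mul_smul_comm, mul_one, one_mul, mul_one, mul_comm s c, ← add_assoc,
      add_self_mod D, zero_add] at hN1
    have hs0 : s = 0 := by
      by_contra hs0
      exact one_ne_zeroE D ((smul_eq_zero.1 hN1).resolve_left (mul_ne_zero hs0 hs0))
    rw [hs', hs0, zero_smul, add_zero]
  · intro h2
    have h3 : Y1 = c • Y0 := Subtype.ext (by rw [hY1, Submodule.coe_smul, hY0, h2])
    rw [h3, map_smul]

/-- **the case analysis** -/
theorem cases_core (D : SpD m q F B ρ b) (hW : WD B ρ σ π) {M : Subgroup G} {U : Subgroup M}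
    {v0 v1 : V} (r0 : Rat F b v0) (r1 : Rat F b v1) (hv0 : v0 ≠ 0) (h01 : B v0 v1 = 0) (hv1 : ¬ ∃ c : K, v1 = c • v0)
    (hv : ∀ x : V, (∀ u ∈ U, ρ (u : G) x = x) ↔ ∃ c : K, x = c • v0) {Y0 : Lam0 B}
    (hY0 : (Y0 : Module.End K V) = wd B v0 v1)
    (hwU : ∀ x : W, (∀ u ∈ U, σ (u : G) x = x) ↔ ∃ c : K, x = c • π Y0)
    {α β : K} (hαβ : α ≠ 0 ∨ β ≠ 0)
    (hz : ∃ z ∈ M, ρ z = 1 + α • sq B v0 + β • wd B v0 v1)
    (hF0 : F ≤ Subfield.closure {c | ∃ g : M, (∀ u ∈ U, g * u * g⁻¹ ∈ U) ∧ ρ (g : G) v0 = c • v0})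
    (hF1 : F ≤ Subfield.closure {c | ∃ g : M, (∀ u ∈ U, g * u * g⁻¹ ∈ U) ∧ σ (g : G) (π Y0) = c • π Y0}) :
    CaseI B ρ F M ∨ CaseII B ρ F M ∨
      ((∀ g : M, (∃ c : K, ρ (g : G) v0 = c • v0) ↔ ∃ c : K, σ (g : G) (π Y0) = c • π Y0) ∧
        ∃ j : ℕ, ∀ (g : M) (c : K), (∀ u ∈ U, g * u * g⁻¹ ∈ U) → ρ (g : G) v0 = c • v0 →
          σ (g : G) (π Y0) = c ^ 2 ^ j • π Y0) := by
  classical
  have := D.finF
  have hch := D.char
  have hcl := D.closed
  -- the line of `v₀ ∧ v₁`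
  have hN0 : wd B v0 v1 ≠ 0 := by
    intro h0
    obtain ⟨y, hy0, hy1⟩ := exists_dual D hv0 hv1
    have := congrArg (fun T : Module.End K V => T y) h0
    simp only [wd_apply, hy0, hy1, one_smul, zero_smul, add_zero, LinearMap.zero_apply] at this
    exact hv0 this
  have hπ0 : π Y0 ≠ 0 := by
    intro h0
    obtain ⟨s, hs⟩ := (hW.ker _).1 h0
    rw [hY0] at hs
    have h1 := wd_sq_zero D h01
    rw [hs, smul_mul_smul_comm, mul_one] at h1
    have hs0 : s = 0 := by
      by_contra hs0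
      exact one_ne_zeroE D ((smul_eq_zero.1 h1).resolve_left (mul_ne_zero hs0 hs0))
    rw [hs0, zero_smul] at hs
    exact hN0 hs
  -- rational eigenvalues
  have cF : ∀ (g : G) (c : K), ρ g v0 = c • v0 → c ∈ F := fun g c h => r0.coef hv0 (by rw [← h]; exact r0.app D g)
  have dF : ∀ (g : G) (c : K), ad ρ g (wd B v0 v1) = c • wd B v0 v1 → c ∈ F := by
    intro g c h
    obtain ⟨i, hi⟩ : ∃ i, wd B v0 v1 (b i) ≠ 0 := by
      by_contra hcon
      push Not at hcon
      exact hN0 (b.ext fun i => by rw [hcon, LinearMap.zero_apply])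
    have r2 : Rat F b (wd B v0 v1 (b i)) := by
      rw [wd_apply]
      exact (r0.smul (r1.form D (rat_basis i))).add (r1.smul (r0.form D (rat_basis i)))
    refine r2.coef hi ?_
    have h2 := congrArg (fun T : Module.End K V => T (b i)) h
    simp only [LinearMap.smul_apply] at h2
    rw [← h2, ad_wd D, wd_apply]
    exact ((r0.app D g).smul ((r1.app D g).form D (rat_basis i))).add
      ((r1.app D g).smul ((r0.app D g).form D (rat_basis i)))
  -- eigenvalues of `N(U)`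
  have ev0 : ∀ g : M, (∀ u ∈ U, g * u * g⁻¹ ∈ U) → ∃ c : K, c ≠ 0 ∧ ρ (g : G) v0 = c • v0 := by
    intro g hg
    have h1 : ∀ u ∈ U, ρ (u : G) (ρ (g : G)⁻¹ v0) = ρ (g : G)⁻¹ v0 := by
      intro u hu
      have h2 := (hv v0).2 ⟨1, by rw [one_smul]⟩ _ (hg u hu)
      have h3 : ρ ((g : G)⁻¹) (ρ ((g * u * g⁻¹ : M) : G) v0) = ρ (u : G) (ρ (g : G)⁻¹ v0) := by
        rw [← Module.End.mul_apply, ← Module.End.mul_apply, ← map_mul, ← map_mul]
        congr 2
        simp only [Subgroup.coe_mul, Subgroup.coe_inv]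
        group
      rw [← h3, h2]
    obtain ⟨c, hc⟩ := (hv _).1 h1
    have h4 : v0 = c • ρ (g : G) v0 := by
      have h5 := congrArg (ρ (g : G)) hc
      rwa [← Module.End.mul_apply, ← map_mul, mul_inv_cancel, map_one, Module.End.one_apply, map_smul] at h5
    have hc0 : c ≠ 0 := by
      rintro rfl
      rw [zero_smul] at h4
      exact hv0 h4
    refine ⟨c⁻¹, inv_ne_zero hc0, ?_⟩
    conv_rhs => rw [h4]
    rw [smul_smul, inv_mul_cancel₀ hc0, one_smul]
  have ev1 : ∀ g : M, (∀ u ∈ U, g * u * g⁻¹ ∈ U) → ∃ c : K, c ≠ 0 ∧ σ (g : G) (π Y0) = c • π Y0 := by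
    intro g hg
    have h1 : ∀ u ∈ U, σ (u : G) (σ (g : G)⁻¹ (π Y0)) = σ (g : G)⁻¹ (π Y0) := by
      intro u hu
      have h2 := (hwU (π Y0)).2 ⟨1, by rw [one_smul]⟩ _ (hg u hu)
      have h3 : σ ((g : G)⁻¹) (σ ((g * u * g⁻¹ : M) : G) (π Y0)) = σ (u : G) (σ (g : G)⁻¹ (π Y0)) := by
        rw [← Module.End.mul_apply, ← Module.End.mul_apply, ← map_mul, ← map_mul]
        congr 2
        simp only [Subgroup.coe_mul, Subgroup.coe_inv]
        group
      rw [← h3, h2]
    obtain ⟨c, hc⟩ := (hwU _).1 h1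
    have h4 : π Y0 = c • σ (g : G) (π Y0) := by
      have h5 := congrArg (σ (g : G)) hc
      rwa [← Module.End.mul_apply, ← map_mul, mul_inv_cancel, map_one, Module.End.one_apply, map_smul] at h5
    have hc0 : c ≠ 0 := by
      rintro rfl
      rw [zero_smul] at h4
      exact hπ0 h4
    refine ⟨c⁻¹, inv_ne_zero hc0, ?_⟩
    conv_rhs => rw [h4]
    rw [smul_smul, inv_mul_cancel₀ hc0, one_smul]
  have uniq0 : ∀ {c c' : K}, c • v0 = c' • v0 → c = c' := fun h => smul_left_injective K hv0 h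
  have uniq1 : ∀ {c c' : K}, c • π Y0 = c' • π Y0 → c = c' := fun h => smul_left_injective K hπ0 h
  -- the set of pairs
  let S : Set (K × K) := {s | ∃ g : M, (∀ u ∈ U, g * u * g⁻¹ ∈ U) ∧
    ∃ c, ρ (g : G) v0 = c • v0 ∧ s.1 = c ^ 2 ∧ σ (g : G) (π Y0) = s.2 • π Y0}
  have hSF : ∀ s ∈ S, s.1 ∈ F ∧ s.2 ∈ F := by
    rintro s ⟨g, -, c, hc, h1, h2⟩
    exact ⟨by rw [h1]; exact F.pow_mem (cF _ _ hc) 2, dF _ _ ((W_line D hW h01 hY0 _ _).1 h2)⟩
  have hSE : ∀ s ∈ S, ∀ r ∈ EE D M h01, s * r ∈ EE D M h01 := by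
    rintro s ⟨g, -, c, hc, h1, h2⟩ r hr
    have : s = (c ^ 2, s.2) := Prod.ext h1 rfl
    rw [this]
    exact EE_mul D g.2 hc ((W_line D hW h01 hY0 _ _).1 h2) hr
  have hS1 : F ≤ Subfield.closure (Prod.fst '' S) := by
    intro x hx
    obtain ⟨y, hy, rfl⟩ := exists_pow D 1 hx
    have h1 : (frobenius K 2) y ∈ (Subfield.closure {c | ∃ g : M, (∀ u ∈ U, g * u * g⁻¹ ∈ U) ∧
        ρ (g : G) v0 = c • v0}).map (frobenius K 2) := ⟨y, hF0 hy, rfl⟩
    rw [RingHom.map_field_closure] at h1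
    rw [pow_one]
    refine Subfield.closure_mono ?_ h1
    rintro _ ⟨c, ⟨g, hg, hc⟩, rfl⟩
    obtain ⟨d, -, hd⟩ := ev1 g hg
    exact ⟨(c ^ 2, d), ⟨g, hg, c, hc, rfl, hd⟩, rfl⟩
  have hS2 : F ≤ Subfield.closure (Prod.snd '' S) := by
    refine hF1.trans (Subfield.closure_mono ?_)
    rintro d ⟨g, hg, hd⟩
    obtain ⟨c, -, hc⟩ := ev0 g hg
    exact ⟨(c ^ 2, d), ⟨g, hg, c, hc, rfl, hd⟩, rfl⟩
  have hzE : ((α, β) : K × K) ∈ EE D M h01 := hz
  rcases goursat S hSF hS1 hS2 with hG | ⟨i, hi, hS⟩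
  · -- the product
    by_cases hα0 : α = 0
    · right; left
      have hβ0 : β ≠ 0 := hαβ.resolve_left (not_not.2 hα0)
      refine ⟨v0, β • v1, 0, hv0, ?_, by rw [map_smul, h01, smul_zero], fun t ht => ?_⟩
      · rintro ⟨c, hc⟩
        exact hv1 ⟨β⁻¹ * c, by rw [← smul_smul, ← hc, smul_smul, inv_mul_cancel₀ hβ0, one_smul]⟩
      · obtain ⟨g, hg, h2⟩ := closure_mul D hSE (hG 0 F.zero_mem t ht) _ hzE
        refine ⟨g, hg, ?_⟩
        rw [h2, Prod.fst_mul, Prod.snd_mul, zero_mul, zero_smul, add_zero, mul_zero, zero_smul, add_zero, wd_smul,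
          smul_smul]
    · left
      refine ⟨v0, v1, α, 0, hα0, hv0, h01, fun t ht => ?_⟩
      obtain ⟨g, hg, h2⟩ := closure_mul D hSE (hG t ht 0 F.zero_mem) _ hzE
      refine ⟨g, hg, ?_⟩
      rw [h2, Prod.fst_mul, Prod.snd_mul, zero_mul, zero_smul, add_zero, add_zero, smul_smul]
  · -- the graph
    have hx : ∀ x ∈ F, ∃ g ∈ M, ρ g = 1 + (x * α) • sq B v0 + (x ^ 2 ^ i * β) • wd B v0 v1 := by
      intro x hxF
      exact closure_mul D hSE (hi x hxF) _ hzE
    by_cases hα0 : α = 0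
    · right; left
      have hβ0 : β ≠ 0 := hαβ.resolve_left (not_not.2 hα0)
      refine ⟨v0, β • v1, 0, hv0, ?_, by rw [map_smul, h01, smul_zero], fun t ht => ?_⟩
      · rintro ⟨c, hc⟩
        exact hv1 ⟨β⁻¹ * c, by rw [← smul_smul, ← hc, smul_smul, inv_mul_cancel₀ hβ0, one_smul]⟩
      · obtain ⟨x, hxF, rfl⟩ := exists_pow D i ht
        obtain ⟨g, hg, h2⟩ := hx x hxF
        refine ⟨g, hg, ?_⟩
        rw [h2, hα0, mul_zero, zero_smul, add_zero, mul_zero, zero_smul, add_zero, wd_smul, smul_smul]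
    by_cases hβ0 : β = 0
    · left
      refine ⟨v0, v1, α, 0, hα0, hv0, h01, fun t ht => ?_⟩
      obtain ⟨g, hg, h2⟩ := hx t ht
      refine ⟨g, hg, ?_⟩
      rw [h2, hβ0, mul_zero, zero_smul, add_zero, add_zero, smul_smul]
    by_cases hPQ : ∀ g : M, (∃ c : K, ρ (g : G) v0 = c • v0) → ∃ c : K, σ (g : G) (π Y0) = c • π Y0
    swap
    · -- degree two
      right; left
      push Not at hPQ
      obtain ⟨g, ⟨l, hl⟩, hg⟩ := hPQ
      have hlF := cF _ _ hl
      have hl0 : l ≠ 0 := by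
        rintro rfl
        rw [zero_smul] at hl
        have h5 := congrArg (ρ ((g : G)⁻¹)) hl
        rw [← Module.End.mul_apply, ← map_mul, inv_mul_cancel, map_one, Module.End.one_apply, map_zero] at h5
        exact hv0 h5
      have h0g : B v0 (ρ (g : G) v1) = 0 := by
        have h5 := D.iso (g : G) v0 v1
        rw [hl, h01, map_smul, LinearMap.smul_apply, smul_eq_mul] at h5
        exact (mul_eq_zero.1 h5).resolve_left hl0
      have hgv : ∀ a d : K, ρ (g : G) v1 ≠ a • v0 + d • v1 := by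
        intro a d h5
        refine hg (l * d) ((W_line D hW h01 hY0 _ _).2 ?_)
        rw [ad_wd D, hl, h5, wd_add, wd_smul, wd_smul, smul_wd, smul_wd, wd_self D, smul_zero, smul_zero, zero_add,
          smul_smul, mul_comm d l]
      let β' : K := (l⁻¹ ^ 2) ^ 2 ^ i * β * l
      have hβ' : β' ≠ 0 := mul_ne_zero (mul_ne_zero (pow_ne_zero _ (pow_ne_zero _ (inv_ne_zero hl0))) hβ0) hl0
      refine ⟨v0, β • v1 + β' • ρ (g : G) v1, β * β' * B v1 (ρ (g : G) v1), hv0, ?_, ?_, fun t ht => ?_⟩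
      · rintro ⟨c, hc⟩
        refine hgv (β'⁻¹ * c) (-(β'⁻¹ * β)) ?_
        rw [← smul_smul, ← hc, smul_add, smul_smul, smul_smul, inv_mul_cancel₀ hβ', one_smul, neg_smul]
        abel
      · rw [map_add, map_smul, map_smul, h01, h0g, smul_zero, smul_zero, add_zero]
      · obtain ⟨x, hxF, rfl⟩ := exists_pow D i ht
        obtain ⟨z, hzM, hzx⟩ := hx x hxF
        obtain ⟨z', hz'M, hzx'⟩ := hx (x * l⁻¹ ^ 2) (F.mul_mem hxF (F.pow_mem (F.inv_mem hlF) 2))
        refine ⟨z * (g * z' * (g : G)⁻¹), M.mul_mem hzM (M.mul_mem (M.mul_mem g.2 hz'M) (M.inv_mem g.2)), ?_⟩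
        have e1 : (x * l⁻¹ ^ 2 * α) • sq B (l • v0) = (x * α) • sq B v0 := by
          rw [sq_smul, smul_smul]
          congr 1
          field_simp
        have e2 : ((x * l⁻¹ ^ 2) ^ 2 ^ i * β) • wd B (l • v0) (ρ (g : G) v1) =
            (x ^ 2 ^ i * β') • wd B v0 (ρ (g : G) v1) := by
          rw [smul_wd, smul_smul]
          congr 1
          rw [mul_pow]
          ring
        rw [map_mul, conj_eq, hzx, hzx', ad_curve D, hl, e1, e2, mul_curve D h01 h0g, add_self_K D, zero_add, wd_add,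
          wd_smul, wd_smul, smul_add, smul_smul, smul_smul]
        have e3 : x ^ 2 ^ i * β * (x ^ 2 ^ i * β') * B v1 (ρ (g : G) v1) =
            (x ^ 2 ^ i) ^ 2 * (β * β' * B v1 (ρ (g : G) v1)) := by ring
        rw [e3, add_assoc, add_assoc, add_comm (((x ^ 2 ^ i) ^ 2 * (β * β' * B v1 (ρ (g : G) v1))) • sq B v0)]
    by_cases hQP : ∀ g : M, (∃ c : K, σ (g : G) (π Y0) = c • π Y0) → ∃ c : K, ρ (g : G) v0 = c • v0
    swap
    · -- two commuting conjugates
      left
      push Not at hQP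
      obtain ⟨g, ⟨c, hc⟩, hg⟩ := hQP
      have hc' := (W_line D hW h01 hY0 _ _).1 hc
      have hcF := dF _ _ hc'
      have hc0 : c ≠ 0 := by
        rintro rfl
        rw [zero_smul] at hc'
        have h5 := ad_inv_cancel (ρ := ρ) (g : G) (wd B v0 v1)
        rw [hc', map_zero] at h5
        exact hN0 h5.symm
      -- `g v₀` lies in the plane
      obtain ⟨c1, c2, hu⟩ : ∃ c1 c2 : K, ρ (g : G) v0 = c1 • v0 + c2 • v1 := by
        have hgv0 : ρ (g : G) v0 ≠ 0 := by
          intro h5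
          exact hg 0 (by rw [h5, zero_smul])
        have hgv1 : ¬ ∃ d : K, ρ (g : G) v1 = d • ρ (g : G) v0 := by
          rintro ⟨d, hd⟩
          refine hv1 ⟨d, ?_⟩
          have h5 := congrArg (ρ ((g : G)⁻¹)) hd
          rwa [map_smul, ← Module.End.mul_apply, ← Module.End.mul_apply, ← map_mul, inv_mul_cancel, map_one,
            Module.End.one_apply, Module.End.one_apply] at h5
        obtain ⟨y, hy0, hy1⟩ := exists_dual D hgv0 hgv1
        have h6 := congrArg (fun T : Module.End K V => T y) hc'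
        simp only [LinearMap.smul_apply] at h6
        rw [ad_wd D, wd_apply, wd_apply, hy0, hy1, one_smul, zero_smul, add_zero, smul_add, smul_smul, smul_smul] at h6
        exact ⟨_, _, h6⟩
      have h0u : B v0 (ρ (g : G) v0) = 0 := by
        rw [hu, map_add, map_smul, map_smul, D.alt, h01, smul_zero, smul_zero, add_zero]
      obtain ⟨k, hkF, hk⟩ := exists_pow D i (F.inv_mem hcF)
      have hk0 : k ≠ 0 := by
        rintro rfl
        rw [zero_pow (pow_ne_zero _ two_ne_zero)] at hk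
        exact inv_ne_zero hc0 hk.symm
      obtain ⟨a, ha⟩ := IsAlgClosed.exists_pow_nat_eq α (n := 2) (by norm_num)
      obtain ⟨d, hd⟩ := IsAlgClosed.exists_pow_nat_eq (k * α) (n := 2) (by norm_num)
      have hd0 : d ≠ 0 := by
        rintro rfl
        rw [zero_pow two_ne_zero] at hd
        exact mul_ne_zero hk0 hα0 hd.symm
      have ha0 : a ≠ 0 := by
        rintro rfl
        rw [zero_pow two_ne_zero] at ha
        exact hα0 ha.symm
      refine ⟨a • v0 + d • ρ (g : G) v0, v0, 1, a, one_ne_zero, ?_, ?_, fun t ht => ?_⟩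
      · intro h5
        refine hg (-(d⁻¹ * a)) ?_
        have h6 : d • ρ (g : G) v0 = - (a • v0) := eq_neg_of_add_eq_zero_right h5
        rw [neg_smul, ← smul_smul, ← smul_neg, ← h6, smul_smul, inv_mul_cancel₀ hd0, one_smul]
      · rw [map_add, LinearMap.add_apply, map_smul, map_smul, LinearMap.smul_apply, LinearMap.smul_apply, D.alt,
          symmB D, h0u, smul_zero, smul_zero, add_zero]
      · obtain ⟨z, hzM, hzx⟩ := hx t ht
        obtain ⟨z', hz'M, hzx'⟩ := hx (t * k) (F.mul_mem ht hkF)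
        refine ⟨z * (g * z' * (g : G)⁻¹), M.mul_mem hzM (M.mul_mem (M.mul_mem g.2 hz'M) (M.inv_mem g.2)), ?_⟩
        have e1 : ad ρ (g : G) (1 + (t * k * α) • sq B v0 + ((t * k) ^ 2 ^ i * β) • wd B v0 v1) =
            1 + (t * k * α) • sq B (ρ (g : G) v0) + (t ^ 2 ^ i * β) • wd B v0 v1 := by
          rw [map_add, map_add, ad_one, map_smul, map_smul, ad_sq D, hc', smul_smul, mul_pow, hk]
          congr 2
          field_simp
        have e2 : a • wd B (a • v0 + d • ρ (g : G) v0) v0 = (a * d) • wd B v0 (ρ (g : G) v0) := by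
          rw [add_wd, smul_wd, smul_wd, wd_self D, smul_zero, zero_add, smul_smul, wd_comm]
        have e3 : sq B (a • v0 + d • ρ (g : G) v0) =
            α • sq B v0 + (k * α) • sq B (ρ (g : G) v0) + (a * d) • wd B v0 (ρ (g : G) v0) := by
          rw [sq_add, sq_smul, sq_smul, ha, hd, smul_wd, wd_smul, smul_smul]
        have e4 : (1 : K) • sq B (a • v0 + d • ρ (g : G) v0) + a • wd B (a • v0 + d • ρ (g : G) v0) v0 =
            α • sq B v0 + (k * α) • sq B (ρ (g : G) v0) := by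
          rw [one_smul, e2, e3, add_assoc, add_self_mod D, add_zero]
        rw [e4, map_mul, conj_eq, hzx, hzx', e1]
        -- the product
        have e5 : ∀ s s' r : K, (1 + s • sq B v0 + r • wd B v0 v1) *
            (1 + s' • sq B (ρ (g : G) v0) + r • wd B v0 v1) = 1 + s • sq B v0 + s' • sq B (ρ (g : G) v0) := by
          intro s s' r
          have h10 : B v1 v0 = 0 := by rw [symmB D, h01]
          have hu0 : B (ρ (g : G) v0) v0 = 0 := by rw [symmB D, h0u]
          have h1u : B v1 (ρ (g : G) v0) = 0 := by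
            rw [hu, map_add, map_smul, map_smul, D.alt, h10, smul_zero, smul_zero, add_zero]
          have hu1 : B (ρ (g : G) v0) v1 = 0 := by rw [symmB D, h1u]
          refine LinearMap.ext fun x => ?_
          simp only [Module.End.mul_apply, LinearMap.add_apply, LinearMap.smul_apply, Module.End.one_apply, sq_apply,
            wd_apply, map_add, map_smul, D.alt, h0u, h1u, h01, h10, smul_zero, add_zero, zero_smul, smul_add, smul_smul]
          have h7 : ∀ v : V, v + v = 0 := fun v => add_self_mod D v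
          have h8 := h7 ((r * B v1 x) • v0)
          have h9 := h7 ((r * B v0 x) • v1)
          calc _ = x + (s * B v0 x) • v0 + (s' * B (ρ (g : G) v0) x) • ρ (g : G) v0 +
              (((r * B v1 x) • v0 + (r * B v1 x) • v0) + ((r * B v0 x) • v1 + (r * B v0 x) • v1)) := by abel
            _ = _ := by rw [h8, h9, add_zero, add_zero]
        rw [e5, smul_add, smul_smul, smul_smul, ← mul_assoc, add_assoc]
    · -- equal stabilisers
      right; right
      refine ⟨fun g => ⟨hPQ g, hQP g⟩, i + 1, fun g c hg hc => ?_⟩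
      obtain ⟨d, -, hd⟩ := ev1 g hg
      have h1 := hS (c ^ 2, d) ⟨g, hg, c, hc, rfl, hd⟩
      have h2 : c ^ 2 ^ (i + 1) = d := by
        have h3 : d = (c ^ 2) ^ 2 ^ i := h1
        rw [h3, ← pow_mul, pow_succ, mul_comm]
      rw [h2, hd]

end

end Cfsg.Agent.H94.BR
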