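import Mathlib
import Cfsg.Agent.H883.BR.Defs

/-!
# HUB BR, family `Sp_{2m}(2^f)`, `m ≥ 2`: definitions (leader helper94)

`V` of dimension `2m` over the algebraically closed field `K` of characteristic `2` with the alternating form `B`,
`ρ : G → Sp(V)`, `G = Sp_{2m}(F)`.

* `sq B v` : `x ↦ B(v,x) v`;  `wd B v w` : `x ↦ B(w,x) v + B(v,x) w`;
* `Sf B` : selfadjoint endomorphisms;  `Lam B` : alternating ones (`B(Xx,x) = 0`);  `Lam0 B` : the span of the `wd B v w`,
  `B(v,w) = 0`;
* `SpD m q F B ρ b` : `b` is a symplectic basis, `G` is generated by the `g` with `ρ g = 1 + sq B v`, `v` with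
  coordinates in `F`;
* `WD B ρ σ π` : `σ` is the representation of `G` on `W = Lam0 / (Lam0 ∩ scalars)`, `π : Lam0 → W`.
-/

set_option autoImplicit false

namespace Cfsg.Agent.H94.BR

open Cfsg.Agent.H883.BR

section

variable {K V : Type} [Field K] [AddCommGroup V] [Module K V] (B : LinearMap.BilinForm K V)

/-- `x ↦ B(v,x) v` -/
def sq (v : V) : Module.End K V := (B v).smulRight v

/-- `x ↦ B(w,x) v + B(v,x) w` -/
def wd (v w : V) : Module.End K V := (B w).smulRight v + (B v).smulRight w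

theorem sq_apply (v x : V) : sq B v x = B v x • v := rfl

theorem wd_apply (v w x : V) : wd B v w x = B w x • v + B v x • w := rfl

/-- selfadjoint endomorphisms -/
def Sf : Submodule K (Module.End K V) where
  carrier := {X | ∀ x y, B (X x) y = B x (X y)}
  zero_mem' := fun x y => by simp
  add_mem' := fun {X Y} hX hY x y => by
    rw [LinearMap.add_apply, LinearMap.add_apply, map_add, map_add, LinearMap.add_apply, hX, hY]
  smul_mem' := fun c X hX x y => by
    rw [LinearMap.smul_apply, LinearMap.smul_apply, map_smul, map_smul, LinearMap.smul_apply, hX]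

theorem mem_Sf {X : Module.End K V} : X ∈ Sf B ↔ ∀ x y, B (X x) y = B x (X y) := Iff.rfl

/-- alternating selfadjoint endomorphisms -/
def Lam : Submodule K (Module.End K V) where
  carrier := {X | (∀ x y, B (X x) y = B x (X y)) ∧ ∀ x, B (X x) x = 0}
  zero_mem' := ⟨fun x y => by simp, fun x => by simp⟩
  add_mem' := fun {X Y} hX hY => ⟨(Sf B).add_mem hX.1 hY.1, fun x => by
    rw [LinearMap.add_apply, map_add, LinearMap.add_apply, hX.2, hY.2, add_zero]⟩
  smul_mem' := fun c X hX => ⟨(Sf B).smul_mem c hX.1, fun x => by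
    rw [LinearMap.smul_apply, map_smul, LinearMap.smul_apply, hX.2, smul_zero]⟩

theorem mem_Lam {X : Module.End K V} :
    X ∈ Lam B ↔ (∀ x y, B (X x) y = B x (X y)) ∧ ∀ x, B (X x) x = 0 := Iff.rfl

/-- the span of the `v ∧ w` with `v ⟂ w` -/
def Lam0 : Submodule K (Module.End K V) := Submodule.span K {X | ∃ v w, B v w = 0 ∧ X = wd B v w}

end

/-- **the data of `Sp_{2m}(F)`, `F` of characteristic `2` with `q` elements** -/
structure SpD (m q : ℕ) {K : Type} [Field K] (F : Subfield K) {V : Type} [AddCommGroup V] [Module K V]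
    (B : LinearMap.BilinForm K V) {G : Type} [Group G] (ρ : G →* Module.End K V)
    (b : Module.Basis (Fin m ⊕ Fin m) K V) : Prop where
  two_le : 2 ≤ m
  four_le : 4 ≤ q
  char : CharP K 2
  closed : IsAlgClosed K
  /-- every finite subset of `K` lies in a finite subfield -/
  locfin : ∀ S : Set K, S.Finite → ∃ E : Subfield K, Finite E ∧ S ⊆ E
  finF : Finite F
  cardF : Nat.card F = q
  finG : Finite G
  qs : QS G
  alt : ∀ x, B x x = 0
  ll : ∀ i j, B (b (Sum.inl i)) (b (Sum.inl j)) = 0
  rr : ∀ i j, B (b (Sum.inr i)) (b (Sum.inr j)) = 0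
  lr : ∀ i j, B (b (Sum.inl i)) (b (Sum.inr j)) = if i = j then 1 else 0
  inj : Function.Injective ρ
  iso : ∀ g x y, B (ρ g x) (ρ g y) = B x y
  /-- `ρ` is defined over `F` -/
  rat : ∀ g i j, b.repr (ρ g (b j)) i ∈ F
  /-- transvections -/
  tv : ∀ v : V, (∀ i, b.repr v i ∈ F) → ∃ g : G, ρ g = 1 + sq B v
  gen : Subgroup.closure {g : G | ∃ v : V, (∀ i, b.repr v i ∈ F) ∧ ρ g = 1 + sq B v} = ⊤

/-- **the module `W = Lam0 / (Lam0 ∩ scalars)`** -/
structure WD {K : Type} [Field K] {V : Type} [AddCommGroup V] [Module K V] (B : LinearMap.BilinForm K V)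
    {G : Type} [Group G] (ρ : G →* Module.End K V) {W : Type} [AddCommGroup W] [Module K W]
    (σ : G →* Module.End K W) (π : Lam0 B →ₗ[K] W) : Prop where
  surj : Function.Surjective π
  ker : ∀ X, π X = 0 ↔ ∃ c : K, (X : Module.End K V) = c • 1
  eqv : ∀ g (X Y : Lam0 B), (Y : Module.End K V) = ad ρ g X → π Y = σ g (π X)

/-- `φ` is an isomorphism of `M`-modules of the `2^j`-th Frobenius twist of `V` onto `W` -/
structure Twi {K : Type} [Field K] {V W : Type} [AddCommGroup V] [Module K V] [AddCommGroup W] [Module K W]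
    {G : Type} [Group G] (ρ : G →* Module.End K V) (σ : G →* Module.End K W) (M : Subgroup G) (j : ℕ)
    (φ : V → W) : Prop where
  bij : Function.Bijective φ
  add : ∀ x y, φ (x + y) = φ x + φ y
  smul : ∀ (c : K) x, φ (c • x) = c ^ 2 ^ j • φ x
  eqv : ∀ g ∈ M, ∀ x, φ (ρ g x) = σ g (φ x)

end Cfsg.Agent.H94.BR
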